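import Mathlib

/-!
Every permutation is a product of two involutions supported inside its support whose numbers of
transpositions differ by at most one.
-/

set_option autoImplicit false

namespace CfsgLib.OreCover

open Equiv

variable {α : Type*} [DecidableEq α] [Fintype α]

/-- A pair of involutions inside the support, of close sizes, with distinct supports. -/
structure InvPair (σ i j : Perm α) : Prop where
  inv_left : i * i = 1
  inv_right : j * j = 1
  prod : i * j = σ
  sub_left : i.support ⊆ σ.support
  sub_right : j.support ⊆ σ.support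
  le_left : i.support.card ≤ j.support.card + 2
  le_right : j.support.card ≤ i.support.card + 2
  ne_supp : σ ≠ 1 → i.support ≠ j.support

theorem InvPair.apply_mem {σ i j : Perm α} (h : InvPair σ i j) {x : α} (hx : x ∉ σ.support) :
    i x = x ∧ j x = x :=
  ⟨Perm.notMem_support.1 fun e => hx (h.sub_left e),
   Perm.notMem_support.1 fun e => hx (h.sub_right e)⟩

/-- Exchange the sizes. -/
theorem InvPair.swap {σ i j : Perm α} (h : InvPair σ i j) :
    InvPair σ j (j * i * j) ∧ (j * i * j).support.card = i.support.card := by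
  have hj : j⁻¹ = j := inv_eq_of_mul_eq_one_right h.inv_right
  have hcard : (j * i * j).support.card = i.support.card := by
    nth_rw 2 [← hj]
    exact Perm.card_support_conj
  have hsupp : (j * i * j).support = i.support.map j.toEmbedding := by
    nth_rw 2 [← hj]
    exact Perm.support_conj
  refine ⟨⟨h.inv_right, ?_, ?_, h.sub_right, ?_, ?_, ?_, fun h1 e => h.ne_supp h1 ?_⟩, hcard⟩
  · calc j * i * j * (j * i * j) = j * i * (j * j) * i * j := by group
      _ = j * (i * i) * j := by rw [h.inv_right]; group
      _ = 1 := by rw [h.inv_left, mul_one, h.inv_right]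
  · calc j * (j * i * j) = (j * j) * (i * j) := by group
      _ = σ := by rw [h.inv_right, one_mul, h.prod]
  · intro x hx
    by_contra hσ
    obtain ⟨hi, hj'⟩ := h.apply_mem hσ
    rw [Perm.mem_support] at hx
    exact hx (by simp [hj', hi])
  · rw [hcard]; exact h.le_right
  · rw [hcard]; exact h.le_left
  · have hself : j.support.map j.toEmbedding = j.support := by
      rw [← Perm.support_conj, mul_inv_cancel_right]
    exact Finset.map_injective j.toEmbedding (hsupp.symm.trans (e.symm.trans hself.symm))

theorem invPair_one : InvPair (1 : Perm α) 1 1 :=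
  ⟨one_mul 1, one_mul 1, one_mul 1, le_rfl, le_rfl, Nat.le_add_right _ _, Nat.le_add_right _ _,
    fun h => absurd rfl h⟩

theorem invPair_cycle {σ : Perm α} (hσ : σ.IsCycle) : ∃ i j : Perm α, InvPair σ i j := by
  classical
  obtain ⟨x, hx⟩ : σ.support.Nonempty := Finset.card_pos.1 (by have := hσ.two_le_card_support; omega)
  set m := orderOf σ with hm
  have hmc : m = σ.support.card := hσ.orderOf
  have hm2 : 2 ≤ m := hmc ▸ hσ.two_le_card_support
  have hex : ∀ y, y ∈ σ.support → ∃ k : ℕ, k < m ∧ (σ ^ k) x = y := by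
    intro y hy
    obtain ⟨k, hk⟩ := hσ.exists_pow_eq (Perm.mem_support.1 hx) (Perm.mem_support.1 hy)
    exact ⟨k % m, Nat.mod_lt _ (by omega), by rw [hm, pow_mod_orderOf]; exact hk⟩
  have hfix : ∀ k : ℕ, (σ ^ k) x = x → m ∣ k := fun k hk =>
    orderOf_dvd_of_pow_eq_one (hσ.pow_eq_one_iff.2 ⟨x, Perm.mem_support.1 hx, hk⟩)
  choose k hk hkx using hex
  let f : α → α := fun y => if h : y ∈ σ.support then (σ⁻¹ ^ k y h) x else y
  have fout : ∀ y, y ∉ σ.support → f y = y := fun y hy => dif_neg hy
  have mem : ∀ l : ℕ, (σ ^ l) x ∈ σ.support := fun l => Perm.pow_apply_mem_support.2 hx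
  have pow_inv : ∀ (l : ℕ), (σ ^ l) ((σ⁻¹ ^ l) x) = x := fun l => by
    rw [← Perm.mul_apply, inv_pow, mul_inv_cancel, Perm.one_apply]
  have fval : ∀ l : ℕ, f ((σ ^ l) x) = (σ⁻¹ ^ l) x := by
    intro l
    have e := hkx _ (mem l)
    simp only [f, dif_pos (mem l)]
    generalize k ((σ ^ l) x) (mem l) = a at e ⊢
    apply (σ ^ (l + a)).injective
    conv_lhs => rw [pow_add, Perm.mul_apply, pow_inv a]
    conv_rhs => rw [add_comm, pow_add, Perm.mul_apply, pow_inv l]
    exact e.symm
  have hpos : ∀ l : ℕ, ∃ l' : ℕ, (σ⁻¹ ^ l) x = (σ ^ l') x ∧ m ∣ l + l' := by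
    intro l
    refine ⟨(m - 1) * l, ?_, ⟨l, ?_⟩⟩
    · congr 1
      rw [inv_pow, inv_eq_iff_mul_eq_one, ← pow_add,
        show l + (m - 1) * l = m * l by
          obtain ⟨m', e⟩ : ∃ m', m = m' + 1 := ⟨m - 1, by omega⟩
          rw [e]; simp; ring,
        pow_mul, hm, pow_orderOf_eq_one, one_pow]
    · obtain ⟨m', e⟩ : ∃ m', m = m' + 1 := ⟨m - 1, by omega⟩
      rw [e]; simp; ring
  have finv : Function.Involutive f := by
    intro y
    by_cases hy : y ∈ σ.support
    · rw [← hkx y hy, fval]
      set l := k y hy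
      obtain ⟨l', e, hd⟩ := hpos l
      rw [e, fval]
      apply (σ ^ l').injective
      rw [pow_inv, ← Perm.mul_apply, ← pow_add, add_comm]
      obtain ⟨c, hc⟩ := hd
      rw [hc, pow_mul, hm, pow_orderOf_eq_one, one_pow, Perm.one_apply]
    · rw [fout y hy, fout y hy]
  let i : Perm α := finv.toPerm
  have hii : i * i = 1 := Perm.ext fun y => finv y
  have iap : ∀ y, i y = f y := fun _ => rfl
  have ifix : ∀ y, y ∈ σ.support → i y = y → y = x ∨ ∃ l, y = (σ ^ l) x ∧ 2 * l = m := by
    intro y hy e
    obtain ⟨l, hl, rfl⟩ : ∃ l, l < m ∧ (σ ^ l) x = y := ⟨_, hk y hy, hkx y hy⟩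
    rw [iap, fval] at e
    have h2 : (σ ^ (l + l)) x = x := by rw [pow_add, Perm.mul_apply, ← e, pow_inv]
    obtain ⟨c, hc⟩ := hfix _ h2
    have : c = 0 ∨ c = 1 := by
      rcases c with _ | _ | c
      · exact Or.inl rfl
      · exact Or.inr rfl
      · exfalso; nlinarith
    rcases this with rfl | rfl
    · left; rw [show l = 0 by omega]; simp
    · right; exact ⟨l, rfl, by omega⟩
  have isub : i.support ⊆ σ.support := fun y hy => by
    by_contra h
    exact Perm.mem_support.1 hy (fout y h)
  let j : Perm α := i * σ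
  have hjj : j * j = 1 := by
    refine Perm.ext fun y => ?_
    show f (σ (f (σ y))) = y
    by_cases hy : y ∈ σ.support
    · obtain ⟨l, -, rfl⟩ : ∃ l, l < m ∧ (σ ^ l) x = y := ⟨_, hk y hy, hkx y hy⟩
      rw [← Perm.mul_apply σ, ← pow_succ', fval]
      rw [show σ ((σ⁻¹ ^ (l + 1)) x) = (σ⁻¹ ^ l) x by
        rw [pow_succ', Perm.mul_apply]; simp]
      rw [← iap, show (σ⁻¹ ^ l) x = i ((σ ^ l) x) from (fval l).symm, iap, iap, finv]
    · have h1 : σ y = y := Perm.notMem_support.1 hy
      rw [h1, fout y hy, h1, fout y hy]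
  have jsub : j.support ⊆ σ.support := fun y hy => by
    by_contra h
    refine Perm.mem_support.1 hy ?_
    show f (σ y) = y
    rw [Perm.notMem_support.1 h, fout y h]
  have jfix : ∀ y, y ∈ σ.support → j y = y → ∃ l, y = (σ ^ l) x ∧ 2 * l + 1 = m := by
    intro y hy e
    obtain ⟨l, hl, rfl⟩ : ∃ l, l < m ∧ (σ ^ l) x = y := ⟨_, hk y hy, hkx y hy⟩
    change f (σ ((σ ^ l) x)) = _ at e
    rw [← Perm.mul_apply σ, ← pow_succ', fval] at e
    have h2 : (σ ^ (l + 1 + l)) x = x := by
      rw [pow_add, Perm.mul_apply, ← e, pow_inv]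
    obtain ⟨c, hc⟩ := hfix _ h2
    have : c = 1 := by
      rcases c with _ | _ | c
      · omega
      · rfl
      · exfalso; nlinarith
    subst this
    exact ⟨l, rfl, by omega⟩
  have ix : i x = x := by
    have := fval 0
    simpa [iap] using this
  have xni : x ∉ i.support := fun h => Perm.mem_support.1 h ix
  have xj : x ∈ j.support := Perm.mem_support.2 fun e => by
    obtain ⟨l, hl, hlm⟩ := jfix x hx e
    obtain ⟨c, hc⟩ := hfix l hl.symm
    rcases c with _ | c
    · omega
    · nlinarith
  have ilow : σ.support.card ≤ i.support.card + 2 := by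
    have : σ.support ⊆ insert x (insert ((σ ^ (m / 2)) x) i.support) := by
      intro y hy
      by_cases e : i y = y
      · rcases ifix y hy e with rfl | ⟨l, rfl, hl⟩
        · simp
        · rw [show m / 2 = l by omega]; simp
      · simp [Perm.mem_support.2 e]
    refine (Finset.card_le_card this).trans ?_
    exact (Finset.card_insert_le _ _).trans (Nat.succ_le_succ (Finset.card_insert_le _ _))
  have jlow : σ.support.card ≤ j.support.card + 1 := by
    have : σ.support ⊆ insert ((σ ^ (m / 2)) x) j.support := by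
      intro y hy
      by_cases e : j y = y
      · obtain ⟨l, rfl, hl⟩ := jfix y hy e
        rw [show m / 2 = l by omega]; simp
      · simp [Perm.mem_support.2 e]
    exact (Finset.card_le_card this).trans (Finset.card_insert_le _ _)
  have ihigh : i.support.card + 1 ≤ σ.support.card := by
    rw [← Finset.card_insert_of_notMem xni]
    exact Finset.card_le_card (Finset.insert_subset hx isub)
  refine ⟨i, j, hii, hjj, ?_, isub, jsub, ?_, ?_, fun _ e => xni (e ▸ xj)⟩
  · show i * (i * σ) = σ
    rw [← mul_assoc, hii, one_mul]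
  · omega
  · have := Finset.card_le_card jsub
    omega

theorem invPair_mul {σ τ : Perm α} (hd : σ.Disjoint τ) {i j i' j' : Perm α} (h : InvPair σ i j)
    (h' : InvPair τ i' j') : ∃ a b : Perm α, InvPair (σ * τ) a b := by
  wlog hs : i.support.card + i'.support.card ≤ j.support.card + j'.support.card + 2 ∧
      j.support.card + j'.support.card ≤ i.support.card + i'.support.card + 2
    generalizing i' j'
  · obtain ⟨h'', hc⟩ := h'.swap
    refine this h'' ?_
    have := h.le_left; have := h.le_right; have := h'.le_left; have := h'.le_right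
    have e1 : (∃ k, i.support.card = 2 * k) ∧ (∃ k, j.support.card = 2 * k) ∧
        (∃ k, i'.support.card = 2 * k) ∧ (∃ k, j'.support.card = 2 * k) := by
      have key : ∀ p : Perm α, p * p = 1 → ∃ k, p.support.card = 2 * k := by
        intro p hp
        have := Perm.sum_cycleType p
        obtain ⟨k, hk⟩ : ∃ k, p.cycleType = Multiset.replicate k 2 := by
          refine ⟨Multiset.card p.cycleType, Multiset.eq_replicate_card.2 fun a ha => ?_⟩
          have h1 := Perm.two_le_of_mem_cycleType ha
          have h2 := Nat.le_of_dvd two_pos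
            ((Perm.dvd_of_mem_cycleType ha).trans (orderOf_dvd_of_pow_eq_one (by rw [sq, hp])))
          omega
        rw [hk, Multiset.sum_replicate, smul_eq_mul] at this
        exact ⟨k, by omega⟩
      exact ⟨key _ h.inv_left, key _ h.inv_right, key _ h'.inv_left, key _ h'.inv_right⟩
    obtain ⟨⟨a, ha⟩, ⟨b, hb⟩, ⟨c, hc'⟩, ⟨d, hd'⟩⟩ := e1
    omega
  have d1 : ∀ {p q : Perm α}, p.support ⊆ σ.support → q.support ⊆ τ.support → p.Disjoint q := by
    intro p q hp hq
    rw [Perm.disjoint_iff_disjoint_support] at hd ⊢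
    exact hd.mono hp hq
  refine ⟨i * i', j * j', ?_, ?_, ?_, ?_, ?_, ?_, ?_, ?_⟩
  · calc i * i' * (i * i') = i * (i' * i) * i' := by group
      _ = i * (i * i') * i' := by rw [(d1 h.sub_left h'.sub_left).commute.eq]
      _ = (i * i) * (i' * i') := by group
      _ = 1 := by rw [h.inv_left, h'.inv_left, one_mul]
  · calc j * j' * (j * j') = j * (j' * j) * j' := by group
      _ = j * (j * j') * j' := by rw [(d1 h.sub_right h'.sub_right).commute.eq]
      _ = (j * j) * (j' * j') := by group
      _ = 1 := by rw [h.inv_right, h'.inv_right, one_mul]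
  · calc i * i' * (j * j') = i * (i' * j) * j' := by group
      _ = i * (j * i') * j' := by rw [(d1 h.sub_right h'.sub_left).commute.eq]
      _ = σ * τ := by rw [← h.prod, ← h'.prod]; group
  · rw [(d1 h.sub_left h'.sub_left).support_mul, hd.support_mul]
    exact Finset.union_subset_union h.sub_left h'.sub_left
  · rw [(d1 h.sub_right h'.sub_right).support_mul, hd.support_mul]
    exact Finset.union_subset_union h.sub_right h'.sub_right
  · rw [(d1 h.sub_left h'.sub_left).card_support_mul, (d1 h.sub_right h'.sub_right).card_support_mul]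
    exact hs.1
  · rw [(d1 h.sub_left h'.sub_left).card_support_mul, (d1 h.sub_right h'.sub_right).card_support_mul]
    exact hs.2
  · intro hne e
    rw [(d1 h.sub_left h'.sub_left).support_mul, (d1 h.sub_right h'.sub_right).support_mul] at e
    have hdd := Finset.disjoint_left.1 (Perm.disjoint_iff_disjoint_support.1 hd)
    have m : ∀ y, (y ∈ i.support ∨ y ∈ i'.support) ↔ (y ∈ j.support ∨ y ∈ j'.support) := fun y => by
      rw [← Finset.mem_union, ← Finset.mem_union, e]
    by_cases hσ : σ = 1
    · have hτ : τ ≠ 1 := fun h1 => hne (by rw [hσ, h1, one_mul])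
      refine h'.ne_supp hτ (Finset.ext fun y => ⟨fun hy => ?_, fun hy => ?_⟩)
      · exact ((m y).1 (Or.inr hy)).resolve_left fun h2 => hdd (h.sub_right h2) (h'.sub_left hy)
      · exact ((m y).2 (Or.inr hy)).resolve_left fun h2 => hdd (h.sub_left h2) (h'.sub_right hy)
    · refine h.ne_supp hσ (Finset.ext fun y => ⟨fun hy => ?_, fun hy => ?_⟩)
      · exact ((m y).1 (Or.inl hy)).resolve_right fun h2 => hdd (h.sub_left hy) (h'.sub_right h2)
      · exact ((m y).2 (Or.inl hy)).resolve_right fun h2 => hdd (h.sub_right hy) (h'.sub_left h2)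

theorem exists_invPair (σ : Perm α) : ∃ i j : Perm α, InvPair σ i j := by
  induction σ using Perm.cycle_induction_on with
  | base_one => exact ⟨1, 1, invPair_one⟩
  | base_cycles σ hσ => exact invPair_cycle hσ
  | induction_disjoint σ τ hd _ h h' =>
    obtain ⟨i, j, hij⟩ := h
    obtain ⟨i', j', hij'⟩ := h'
    exact invPair_mul hd hij hij'

end CfsgLib.OreCover
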